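import Cfsg.Agent.Lib.SS.FPF

set_option autoImplicit false
set_option linter.unusedSectionVars false
set_option linter.style.haveILetI false
set_option linter.unusedVariables false

open Pointwise
open scoped commutatorElement IsMulCommutative

namespace CfsgLib.SS

open Subgroup CfsgLib.Solv

variable {G : Type*} [Group G] [Finite G]

/-- S0058 for `r`-groups. -/
theorem sup_centralizers_pgroup (A R : Subgroup G) [hAc : IsMulCommutative A] (hA : ¬ IsCyclic A)
    (hAR : A ≤ normalizer (R : Set G)) (r : ℕ) [Fact r.Prime] (hR : IsPGroup r R)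
    (hcop : (Nat.card A).Coprime (Nat.card R)) :
    (⨆ a ∈ {a : G | a ∈ A ∧ a ≠ 1}, R ⊓ centralizer {a}) = R := by
  classical
  set Y : Subgroup G := ⨆ a ∈ {a : G | a ∈ A ∧ a ≠ 1}, R ⊓ centralizer {a} with hY
  have hYmem : ∀ a ∈ A, a ≠ 1 → R ⊓ centralizer {a} ≤ Y := by
    intro a ha ha1
    exact le_iSup₂_of_le a ⟨ha, ha1⟩ le_rfl
  have hAcomm : ∀ a ∈ A, ∀ b ∈ A, a * b = b * a := by
    intro a ha b hb
    have := hAc.is_comm.comm (⟨a, ha⟩ : A) ⟨b, hb⟩
    exact congrArg Subtype.val this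
  have hYR : Y ≤ R := iSup₂_le (fun a _ => inf_le_left)
  by_contra hne
  have hlt : Y < R := lt_of_le_of_ne hYR hne
  -- `A` normalizes `Y`.
  have hconj : ∀ a ∈ A, ∀ y ∈ Y, a * y * a⁻¹ ∈ Y := by
    intro a ha
    have h1 : Y ≤ Y.comap (MulAut.conj a).toMonoidHom := by
      refine iSup₂_le ?_
      rintro b ⟨hb, hb1⟩ x hx
      obtain ⟨hxR, hxb⟩ := Subgroup.mem_inf.mp hx
      refine hYmem b hb hb1 ?_
      refine Subgroup.mem_inf.mpr ⟨?_, ?_⟩
      · exact (mem_normalizer_iff.mp (hAR ha) x).mp hxR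
      · have hxb : x * b = b * x := mem_centralizer_singleton_iff.mp hxb
        refine mem_centralizer_singleton_iff.mpr ?_
        have h2 : a * b = b * a := hAcomm a ha b hb
        calc a * x * a⁻¹ * b = a * x * (a⁻¹ * b * a) * a⁻¹ := by group
          _ = a * x * b * a⁻¹ := by
            have : a⁻¹ * b * a = b := by rw [mul_assoc, ← h2]; group
            rw [this]
          _ = a * (x * b) * a⁻¹ := by group
          _ = a * (b * x) * a⁻¹ := by rw [hxb]
          _ = (a * b) * x * a⁻¹ := by group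
          _ = b * (a * x * a⁻¹) := by rw [h2]; group
    intro y hy
    exact h1 hy
  have hAY : A ≤ normalizer (Y : Set G) := by
    intro a ha
    rw [mem_normalizer_iff]
    intro y
    refine ⟨hconj a ha y, fun h => ?_⟩
    have := hconj a⁻¹ (inv_mem ha) _ h
    have h2 : a⁻¹ * (a * y * a⁻¹) * a⁻¹⁻¹ = y := by group
    rwa [h2] at this
  set H : Subgroup G := normalizer (Y : Set G) ⊓ normalizer (R : Set G) with hH
  have hAH : A ≤ H := le_inf hAY hAR
  set N : Subgroup G := R ⊓ H with hN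
  have hYN : Y < N := by
    have h1 := lt_inf_normalizer_of_pgroup (p := r) (U := R) (V := Y) hR hlt
    exact lt_of_lt_of_le h1 (le_inf inf_le_left (le_inf inf_le_right (inf_le_left.trans le_normalizer)))
  have hNR : N ≤ R := inf_le_left
  have hNH : N ≤ H := inf_le_right
  have hYH : Y ≤ H := hYN.le.trans hNH
  have hHY : H ≤ normalizer (Y : Set G) := inf_le_left
  have hHR : H ≤ normalizer (R : Set G) := inf_le_right
  have hHN : H ≤ normalizer (N : Set G) := by
    intro h hh
    rw [mem_normalizer_iff]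
    intro x
    constructor
    · intro hx
      obtain ⟨h1, h2⟩ := Subgroup.mem_inf.mp hx
      exact Subgroup.mem_inf.mpr ⟨(mem_normalizer_iff.mp (hHR hh) x).mp h1,
        mul_mem (mul_mem hh h2) (inv_mem hh)⟩
    · intro hx
      obtain ⟨h1, h2⟩ := Subgroup.mem_inf.mp hx
      refine Subgroup.mem_inf.mpr ⟨(mem_normalizer_iff.mp (hHR hh) x).mpr h1, ?_⟩
      have h3 : x = h⁻¹ * (h * x * h⁻¹) * h := by group
      rw [h3]
      exact mul_mem (mul_mem (inv_mem hh) h2) hh
  haveI hY'n : (Y.subgroupOf H).Normal := Subgroup.normal_subgroupOf_of_le_normalizer hHY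
  haveI hR'n : (R.subgroupOf H).Normal := Subgroup.normal_subgroupOf_of_le_normalizer hHR
  let Q := H ⧸ Y.subgroupOf H
  let π : H →* Q := QuotientGroup.mk' (Y.subgroupOf H)
  have hπ : Function.Surjective π := QuotientGroup.mk'_surjective _
  have hπ1 : ∀ x : H, π x = 1 ↔ (x : G) ∈ Y := by
    intro x
    rw [QuotientGroup.mk'_apply, QuotientGroup.eq_one_iff, mem_subgroupOf]
  let f : A →* Q := π.comp (Subgroup.inclusion hAH)
  have hf : Function.Injective f := by
    rw [injective_iff_map_eq_one]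
    intro a ha
    have h1 : (a : G) ∈ Y := (hπ1 _).mp ha
    have h2 : (a : G) ∈ A ⊓ R := Subgroup.mem_inf.mpr ⟨a.2, hYR h1⟩
    have h3 : A ⊓ R = ⊥ := disjoint_iff.mp (Subgroup.disjoint_of_coprime_natCard hcop)
    rw [h3, mem_bot] at h2
    exact Subtype.ext h2
  set K' : Subgroup Q := (R.subgroupOf H).map π with hK'
  haveI hK'n : K'.Normal := Subgroup.Normal.map hR'n π hπ
  have hK'ne : K' ≠ ⊥ := by
    obtain ⟨n, hnN, hnY⟩ := SetLike.exists_of_lt hYN
    intro hb
    have h1 : π ⟨n, hNH hnN⟩ ∈ K' := ⟨⟨n, hNH hnN⟩, hNR hnN, rfl⟩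
    rw [hb, mem_bot, hπ1] at h1
    exact hnY h1
  have hcyc : IsCyclic f.range := by
    apply fpf_cyclic f.range K' hK'ne
    · rw [normalizer_eq_top_iff.mpr hK'n]
      exact le_top
    · rintro _ ⟨a, rfl⟩ ha1
      have ha1' : (a : G) ≠ 1 := fun h => ha1 (by
        have : a = 1 := Subtype.ext h
        rw [this, map_one])
      rw [eq_bot_iff]
      intro x hx
      obtain ⟨hxK, hxc⟩ := Subgroup.mem_inf.mp hx
      obtain ⟨⟨n, hnH⟩, hnR, rfl⟩ := hxK
      have hnR' : n ∈ R := hnR
      have hxc := mem_centralizer_singleton_iff.mp hxc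
      rw [mem_bot, hπ1]
      have hnN : n ∈ N := Subgroup.mem_inf.mpr ⟨hnR', hnH⟩
      -- the fixed coset lemma
      have hcomm : ∀ b ∈ zpowers (a : G), b * n * b⁻¹ * n⁻¹ ∈ Y := by
        intro b hb
        obtain ⟨j, rfl⟩ := mem_zpowers_iff.mp hb
        set a₁ : H := ⟨a, hAH a.2⟩ with ha₁
        set n₁ : H := ⟨n, hnH⟩ with hn₁
        have h1 : Commute (π n₁) (π a₁) := hxc
        have h2 : π (a₁ ^ j * n₁ * (a₁ ^ j)⁻¹ * n₁⁻¹) = 1 := by
          rw [map_mul, map_mul, map_mul, map_inv, map_inv, map_zpow]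
          have h3 := (h1.zpow_right j).eq
          rw [← h3]
          group
        have h4 := (hπ1 _).mp h2
        simpa [ha₁, hn₁] using h4
      have hzA : zpowers (a : G) ≤ A := zpowers_le.mpr a.2
      obtain ⟨c, hc, hcY⟩ := coprime_fixed_coset (zpowers (a : G)) N (by
          rw [zpowers_le]
          exact hHN (hAH a.2)) (Nat.Coprime.coprime_dvd_left (Subgroup.card_dvd_of_le hzA)
            (Nat.Coprime.coprime_dvd_right (Subgroup.card_dvd_of_le hNR) hcop)) (Or.inr (by
          haveI : Group.IsNilpotent N := (hR.to_le hNR).isNilpotent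
          infer_instance)) Y hYN.le (hNH.trans hHY) (hzA.trans hAY) n hnN hcomm
      obtain ⟨hcN, hcC⟩ := Subgroup.mem_inf.mp hc
      have hca : c ∈ R ⊓ centralizer {(a : G)} := by
        refine Subgroup.mem_inf.mpr ⟨hNR hcN, mem_centralizer_singleton_iff.mpr ?_⟩
        exact (mem_centralizer_iff.mp hcC a (mem_zpowers _)).symm
      have hcY' := hYmem a a.2 ha1' hca
      have : n = c * (n⁻¹ * c)⁻¹ := by group
      change n ∈ Y
      rw [this]
      exact mul_mem hcY' (inv_mem hcY)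
    · left
      exact ⟨⟨by
        rintro ⟨_, a, rfl⟩ ⟨_, b, rfl⟩
        apply Subtype.ext
        change f a * f b = f b * f a
        rw [← map_mul, ← map_mul, hAc.is_comm.comm a b]⟩⟩
  apply hA
  exact isCyclic_of_surjective (MonoidHom.ofInjective hf).symm.toMonoidHom
    (MonoidHom.ofInjective hf).symm.surjective

/-- S0058. -/
theorem sup_centralizers (A K : Subgroup G) [hAc : IsMulCommutative A] (hA : ¬ IsCyclic A)
    (hAK : A ≤ normalizer (K : Set G)) (hcop : (Nat.card A).Coprime (Nat.card K)) :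
    (⨆ a ∈ {a : G | a ∈ A ∧ a ≠ 1}, K ⊓ centralizer {a}) = K := by
  classical
  set Y : Subgroup G := ⨆ a ∈ {a : G | a ∈ A ∧ a ≠ 1}, K ⊓ centralizer {a} with hY
  have hYK : Y ≤ K := iSup₂_le (fun a _ => inf_le_left)
  have hsolv : Group.IsSolvable A := Group.isSolvable_of_comm (fun a b => hAc.is_comm.comm a b)
  have hsyl : ∀ r : ℕ, r.Prime → ¬ r ∣ Y.relIndex K := by
    intro r hr hdvd
    haveI : Fact r.Prime := ⟨hr⟩
    obtain ⟨P, ⟨hPK, hPp, hPi⟩, hPA⟩ := exists_invariant_sylow (p := r) A K hAK hcop (Or.inl hsolv)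
    have h1 := sup_centralizers_pgroup A P hA hPA r hPp
      (Nat.Coprime.coprime_dvd_right (Subgroup.card_dvd_of_le hPK) hcop)
    have hPY : P ≤ Y := by
      rw [← h1]
      refine iSup₂_le ?_
      rintro a ha
      exact (inf_le_inf_right _ hPK).trans (le_iSup₂_of_le a ha le_rfl)
    apply hPi
    rw [← Subgroup.relIndex_mul_relIndex P Y K hPY hYK]
    exact Dvd.dvd.mul_left hdvd _
  have h2 : Y.relIndex K = 1 := by
    by_contra h
    exact hsyl _ (Nat.minFac_prime h) (Nat.minFac_dvd _)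
  exact le_antisymm hYK (Subgroup.relIndex_eq_one.mp h2)

end CfsgLib.SS
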